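import Cfsg.Agent.Lib.DivM.Ring
import Cfsg.Agent.Lib.PGroup.RankOne
import Cfsg.Agent.Lib.GW.Basic

/-! Finite groups of two by two matrices over a division ring: averaging idempotents (helper22). -/

set_option autoImplicit false
set_option linter.unusedSectionVars false

namespace Cfsg.Lib.DivM

open Subgroup Cfsg.Lib.BG Cfsg.Lib.GW
open scoped Cfsg.Lib.Transfer

variable {D : Type*} [DivisionRing D] {G : Type*} [Group G] [Finite G] {p : ℕ}

theorem cyc_of_comm (f : G →* Dˣ) (hf : Function.Injective f) (h : ∀ x y : G, x * y = y * x) : IsCyclic G := by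
  have := Subring.isMulCommutative_closure (s := Set.range fun x : G => (f x : D)) (by
    rintro _ ⟨x, rfl⟩ _ ⟨y, rfl⟩
    rw [← Units.val_mul, ← map_mul, h, map_mul, Units.val_mul])
  open scoped IsMulCommutative in
  exact isCyclic_of_injective_ringHom (R := Subring.closure (Set.range fun x : G => (f x : D)))
    (((Units.coeHom D).comp f).codRestrict _ fun x => Subring.subset_closure ⟨x, rfl⟩)
    fun x y e => hf (Units.ext (congrArg Subtype.val e))

theorem rank_one [Fact p.Prime] (f : G →* Dˣ) (hf : Function.Injective f) : PRankLE p 1 G := fun A h1 h2 => by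
  have := cyc_of_comm (f.comp A.subtype) (hf.comp A.subtype_injective) h1.1.1
  obtain ⟨a, ha⟩ := this.exists_ofOrder_eq_natCard
  rw [← ha, pow_one]
  exact Nat.le_of_dvd (Fact.out : p.Prime).pos (orderOf_dvd_of_pow_eq_one (Subtype.ext (h2 a a.2)))

instance finRange {M : Type*} [Group M] (f : G →* M) : Finite f.range := .of_surjective _ f.rangeRestrict_surjective

theorem cyc_of_odd [Fact p.Prime] (h2 : p ≠ 2) (hG : IsPGroup p G) (f : G →* Dˣ) : IsCyclic f.range :=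
  isCyclic_of_surjective _ (hH := PGroup.isCyclic_of_pRankLE_one_of_odd (S := ⊤) h2
    ((hG.of_surjective _ f.rangeRestrict_surjective).to_subgroup _)
    (PGroup.pRankLE_top_iff.2 (rank_one _ f.range.subtype_injective))) topEquiv.surjective

theorem sq_cases {x : Dˣ} (h : x * x = 1) : x = 1 ∨ x = -1 :=
  (mul_self_eq_one_iff.1 (congrArg Units.val h : (x : D) * x = 1)).imp Units.ext Units.ext

variable [CharZero D] {e x y : M2 D}

theorem R1.of_inv (h : y * y = 1) (h1 : y ≠ 1) (h2 : y ≠ -1) : R1 ((2 : ℚ)⁻¹ • (1 + y)) := by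
  refine ⟨?_, fun k => h2 ?_, fun k => h1 ?_⟩
  · simp only [smul_mul_smul_comm, mul_add, add_mul, h, one_mul, mul_one]
    module
  · linear_combination (norm := module) (2 : ℚ) • k
  · linear_combination (norm := module) (2 : ℚ) • k

theorem rk0 (hy : y * y = 1) (h1 : y ≠ 1) (h2 : y ≠ -1) (hx : x * x = 1) (c : x * y = y * x) :
    x = 1 ∨ x = -1 ∨ x = y ∨ x = -y := by
  by_contra! H
  rcases (R1.of_inv hy h1 h2).eq_of_comm (R1.of_inv hx H.1 H.2.1) (by
    simp only [smul_mul_smul_comm, mul_add, add_mul, c, one_mul, mul_one]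
    module) with k | k
  · exact H.2.2.1 (by linear_combination (norm := module) (2 : ℚ) • k)
  · exact H.2.2.2 (by linear_combination (norm := module) (2 : ℚ) • k)

variable (ρ : G →* M2 D) {H K : Subgroup G} {a g : G}

/-- the centralizer of a matrix -/
def Ce (e : M2 D) : Subgroup G where
  carrier := {g | e * ρ g = ρ g * e}
  mul_mem' {a b} ha hb := by
    change _ = _ at ha hb ⊢
    rw [map_mul, ← mul_assoc, ha, mul_assoc, hb, mul_assoc]
  one_mem' := by simp
  inv_mem' {a} ha := by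
    change _ = _ at ha ⊢
    calc _ = ρ a⁻¹ * (ρ a * e) * ρ a⁻¹ := by rw [← mul_assoc, ← map_mul, inv_mul_cancel, map_one, one_mul]
      _ = _ := by rw [← ha, mul_assoc, mul_assoc, ← map_mul, mul_inv_cancel, map_one, mul_one]

/-- the averaging idempotent -/
noncomputable def av (H : Subgroup G) : M2 D := (Nat.card H : ℚ)⁻¹ • ∑ᶠ h : H, ρ h

variable {ρ}

theorem mem_Ce : g ∈ Ce ρ e ↔ e * ρ g = ρ g * e := Iff.rfl
theorem Ce_compl : Ce ρ (1 - e) = Ce ρ e := Subgroup.ext fun g => by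
  rw [mem_Ce, mem_Ce, mul_sub, sub_mul, one_mul, mul_one, sub_right_inj]

theorem exists_al (h : R1 e) (hH : H ≤ Ce ρ e) : ∃ α : H →* Dˣ, ∀ x : H, α x = 1 ↔ ρ x * e = e := by
  obtain ⟨α, a, b, c⟩ := h.alpha
  let f : H →* D := ⟨⟨fun x => α (ρ x), by simpa using a⟩, fun x y => by simpa using b _ _ (hH y.2)⟩
  refine ⟨f.toHomUnits, fun x => ?_⟩
  rw [Units.ext_iff, MonoidHom.coe_toHomUnits]
  change α (ρ x) = 1 ↔ _
  refine ⟨fun k => by simpa [sub_mul, sub_eq_zero] using c (ρ x - 1) (by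
    rw [mul_sub, sub_mul, hH x.2, mul_one, one_mul]) (by rw [map_sub, k, a, sub_self]), fun k => ?_⟩
  have := b (ρ x) e rfl
  rw [k] at this
  exact mul_right_cancel₀ (fun e0 => h.ne0 (h.sq ▸ c e rfl e0)) (this.symm.trans (one_mul _).symm)

theorem exists_pair (hρ : Function.Injective ρ) (h : R1 e) (hH : H ≤ Ce ρ e) : ∃ α β : H →* Dˣ,
    (∀ x : H, α x = 1 ↔ ρ x * e = e) ∧ (∀ x : H, β x = 1 ↔ ρ x * (1 - e) = 1 - e) ∧ ∀ x, α x = 1 → β x = 1 → x = 1 := by
  obtain ⟨α, a⟩ := exists_al h hH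
  obtain ⟨β, b⟩ := exists_al h.compl (hH.trans Ce_compl.ge)
  refine ⟨α, β, a, b, fun x h1 h2 => Subtype.ext (hρ ?_)⟩
  have := (b x).1 h2
  rw [mul_sub, (a x).1 h1, sub_left_inj, mul_one] at this
  rw [this, coe_one, map_one]

theorem mul_av (ha : a ∈ H) : ρ a * av ρ H = av ρ H := by
  have := Fintype.ofFinite H
  rw [av, mul_smul_comm, finsum_eq_sum_of_fintype, Finset.mul_sum]
  congr 1
  exact Fintype.sum_equiv (Equiv.mulLeft ⟨a, ha⟩) _ _ fun x => (map_mul ρ _ _).symm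

theorem av_mul (ha : a ∈ H) : av ρ H * ρ a = av ρ H := by
  have := Fintype.ofFinite H
  rw [av, smul_mul_assoc, finsum_eq_sum_of_fintype, Finset.sum_mul]
  congr 1
  exact Fintype.sum_equiv (Equiv.mulRight ⟨a, ha⟩) _ _ fun x => (map_mul ρ _ _).symm

theorem av_mul_of (h : ∀ a ∈ H, ρ a * e = e) : av ρ H * e = e := by
  have := Fintype.ofFinite H
  rw [av, smul_mul_assoc, finsum_eq_sum_of_fintype, Finset.sum_mul, Finset.sum_congr rfl fun (x : H) _ => h x x.2,
    Finset.sum_const, Finset.card_univ, ← Nat.card_eq_fintype_card, ← Nat.cast_smul_eq_nsmul ℚ, smul_smul,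
    inv_mul_cancel₀ (Nat.cast_ne_zero.2 Nat.card_pos.ne'), one_smul]

theorem mul_av_of (h : ∀ a ∈ H, e * ρ a = e) : e * av ρ H = e := by
  have := Fintype.ofFinite H
  rw [av, mul_smul_comm, finsum_eq_sum_of_fintype, Finset.mul_sum, Finset.sum_congr rfl fun (x : H) _ => h x x.2,
    Finset.sum_const, Finset.card_univ, ← Nat.card_eq_fintype_card, ← Nat.cast_smul_eq_nsmul ℚ, smul_smul,
    inv_mul_cancel₀ (Nat.cast_ne_zero.2 Nat.card_pos.ne'), one_smul]

theorem av_sq : av ρ H * av ρ H = av ρ H := av_mul_of fun _ => mul_av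

theorem av_comm (h : H ≤ Ce ρ e) : e * av ρ H = av ρ H * e := by
  have := Fintype.ofFinite H
  rw [av, mul_smul_comm, smul_mul_assoc, finsum_eq_sum_of_fintype, Finset.mul_sum, Finset.sum_mul,
    Finset.sum_congr rfl fun x _ => h x.2]

theorem av_conj (g : G) : ρ g * av ρ H = av ρ (g ⋆ H) * ρ g := by
  have h1 : av ρ (g ⋆ H) * (ρ g * av ρ H) = ρ g * av ρ H := av_mul_of fun a ha => by
    obtain ⟨b, hb, rfl⟩ := ha
    change ρ (g * b * g⁻¹) * _ = _
    rw [← mul_assoc, ← map_mul, inv_mul_cancel_right, map_mul, mul_assoc, mul_av hb]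
  have h2 : av ρ (g ⋆ H) * ρ g * av ρ H = av ρ (g ⋆ H) * ρ g := mul_av_of fun a ha => by
    rw [mul_assoc, ← map_mul, show g * a = g * a * g⁻¹ * g by simp, map_mul, ← mul_assoc,
      av_mul (Transfer.conj_mem_conj.2 ha)]
  rw [← h1, ← h2, mul_assoc]

theorem norm_le_Ce : 𝐍(H) ≤ Ce ρ (av ρ H) := fun g hg => by
  rw [mem_Ce, av_conj, conj_eq_of_norm hg]

theorem av_ne_one (hρ : Function.Injective ρ) (ha : a ∈ H) (h : a ≠ 1) : av ρ H ≠ 1 := fun k =>
  h (hρ (by simpa [k] using mul_av (ρ := ρ) ha))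

theorem av_zpowers {n : ℕ} (h : a ^ n = 1) (hn : n ≠ 0) :
    av ρ (zpowers a) = (n : ℚ)⁻¹ • ∑ k ∈ Finset.range n, ρ a ^ k := by
  have h1 : (∑ k ∈ Finset.range n, ρ a ^ k) * ρ a = ∑ k ∈ Finset.range n, ρ a ^ k := by
    have := geom_sum_mul (ρ a) n
    rwa [← map_pow, h, map_one, sub_self, mul_sub, mul_one, sub_eq_zero] at this
  have h2 : (∑ k ∈ Finset.range n, ρ a ^ k) * av ρ (zpowers a) = ∑ k ∈ Finset.range n, ρ a ^ k := mul_av_of fun b hb => by
    obtain ⟨m, rfl⟩ := (Submonoid.mem_powers_iff _ _).1 (mem_powers_iff_mem_zpowers.2 hb)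
    induction m with
    | zero => simp
    | succ m ih => rw [pow_succ, map_mul, ← mul_assoc, ih (pow_mem (mem_zpowers a) m), h1]
  rw [← h2, Finset.sum_mul, Finset.sum_congr rfl fun k _ => (map_pow ρ a k ▸ mul_av (pow_mem (mem_zpowers a) k) :
    ρ a ^ k * _ = _), Finset.sum_const, Finset.card_range, ← Nat.cast_smul_eq_nsmul ℚ, smul_smul,
    inv_mul_cancel₀ (Nat.cast_ne_zero.2 hn), one_smul]

theorem sq_mem_Ce (h : ρ g * e = e * ρ g ∨ ρ g * e = (1 - e) * ρ g) : g * g ∈ Ce ρ e := by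
  rw [mem_Ce, map_mul, mul_assoc]
  rcases h with h | h
  · rw [h, ← mul_assoc, ← mul_assoc, h]
  · rw [h, ← mul_assoc (ρ g), mul_sub, mul_one, h]; noncomm_ring

variable (hρ : Function.Injective ρ) [hp : Fact p.Prime] {E P : Subgroup G}
include hρ

/-- the two fixed lines of a noncyclic elementary abelian subgroup -/
theorem exists_line (hE : IsElementaryAbelian p E) (hc : ¬ IsCyclic E) : ∃ a ∈ E, a ≠ 1 ∧ R1 (av ρ (zpowers a)) ∧
    E ≤ Ce ρ (av ρ (zpowers a)) ∧ ∀ g ∈ 𝐍(E), g * g ∈ Ce ρ (av ρ (zpowers a)) := by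
  have cm : ∀ {a b}, a ∈ E → b ∈ E → a * b = b * a := fun a b => mem_cent.1 (abelian_cent hE.1 b) _ a
  have le : ∀ a ∈ E, E ≤ Ce ρ (av ρ (zpowers a)) := fun a ha b hb =>
    norm_le_Ce (cent_le_norm _ (mem_cent.2 fun c hc => cm (zpowers_le.2 ha hc) hb))
  suffices ∃ a ∈ E, a ≠ 1 ∧ av ρ (zpowers a) ≠ 0 by
    obtain ⟨a, ha, a1, h⟩ := this
    have r : R1 (av ρ (zpowers a)) := ⟨av_sq, h, av_ne_one hρ (mem_zpowers a) a1⟩
    refine ⟨a, ha, a1, r, le a ha, fun g hg => sq_mem_Ce ?_⟩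
    have e1 := av_conj (ρ := ρ) (H := zpowers a) g
    have e2 : ρ g⁻¹ * ρ g = 1 := by rw [← map_mul, inv_mul_cancel, map_one]
    rw [e1]
    refine (r.eq_of_comm (f := av ρ (g ⋆ zpowers a)) ⟨av_sq, fun k => h ?_, av_ne_one hρ
      (Transfer.conj_mem_conj.2 (mem_zpowers a)) (mt conj_eq_one_iff.1 a1)⟩ (av_comm (le_trans ?_ (le a ha)))).imp
        (fun k => by rw [k]) fun k => by rw [k]
    · rw [← one_mul (av _ _), ← e2, mul_assoc, e1, k, zero_mul, mul_zero]
    · exact (Transfer.conj_mono g (zpowers_le.2 ha)).trans (conj_eq_of_norm hg).le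
  by_contra! H
  obtain ⟨a, ha, a1⟩ := exists_ne_one (A := E) (by rintro rfl; exact hc inferInstance)
  obtain ⟨b, hb, n⟩ : ∃ b ∈ E, b ∉ zpowers a := by
    by_contra! k
    exact hc (le_antisymm k (zpowers_le.2 ha) ▸ inferInstance)
  have k : ∀ x ∈ E, x ≠ 1 → ∑ k ∈ Finset.range p, ρ x ^ k = 0 := fun x hx x1 => by
    simpa [av_zpowers (hE.2 x hx) hp.out.ne_zero, hp.out.ne_zero] using H x hx x1
  have h1 : ∑ j ∈ Finset.range p, ∑ k ∈ Finset.range p, ρ (b * a ^ j) ^ k = 0 := Finset.sum_eq_zero fun j _ =>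
    k _ (mul_mem hb (pow_mem ha j)) fun e => n (eq_inv_of_mul_eq_one_left e ▸ inv_mem (pow_mem (mem_zpowers a) j))
  rw [Finset.sum_comm, Finset.sum_eq_single 0 (fun j hj j0 => ?_) (by simp [hp.out.pos])] at h1
  · simp only [pow_zero, Finset.sum_const, Finset.card_range, ← Nat.cast_smul_eq_nsmul ℚ, smul_eq_zero] at h1
    exact h1.elim (Nat.cast_ne_zero.2 hp.out.ne_zero) one_ne_zero
  · have := k _ (pow_mem ha j) fun e => Nat.not_dvd_of_pos_of_lt (Nat.pos_of_ne_zero j0) (Finset.mem_range.1 hj)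
      (orderOf_eq_prime (hE.2 a ha) a1 ▸ orderOf_dvd_of_pow_eq_one e)
    rw [← mul_zero (ρ b ^ j), ← this, Finset.mul_sum]
    exact Finset.sum_congr rfl fun i _ => by
      rw [← map_pow, ← map_pow, ← map_pow, ← map_mul, (show Commute b (a ^ i) from cm hb (pow_mem ha i)).mul_pow,
        ← pow_mul, ← pow_mul, mul_comm i]

theorem rank_two : PRankLE p 2 G := fun E h1 h2 => by
  by_cases hc : IsCyclic E
  · obtain ⟨a, ha⟩ := hc.exists_ofOrder_eq_natCard
    exact ha ▸ (Nat.le_of_dvd hp.out.pos (orderOf_dvd_of_pow_eq_one (Subtype.ext (h2 a a.2)))).trans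
      (Nat.le_self_pow two_ne_zero p)
  obtain ⟨a, -, -, r, le, -⟩ := exists_line hρ ⟨h1, h2⟩ hc
  obtain ⟨α, β, -, -, k⟩ := exists_pair hρ r le
  have b : ∀ f : E →* Dˣ, Nat.card f.range ≤ p := fun f => by
    simpa using rank_one (p := p) _ f.range.subtype_injective ⊤ ⟨⟨by
      rintro ⟨⟨_, x, rfl⟩, -⟩ ⟨⟨_, y, rfl⟩, -⟩
      exact Subtype.ext (Subtype.ext (by simp [← map_mul, h1.1.1 x y]))⟩⟩ (by
      rintro ⟨_, x, rfl⟩ -
      exact Subtype.ext (by simp [← map_pow, show x ^ p = 1 from Subtype.ext (h2 x x.2)]))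
  have := Nat.card_le_card_of_injective (α.rangeRestrict.prod β.rangeRestrict) ((injective_iff_map_eq_one _).2 fun x e =>
    k x (congrArg (·.1.1) e) (congrArg (·.2.1) e))
  rw [Nat.card_prod] at this
  exact this.trans (pow_two p ▸ Nat.mul_le_mul (b α) (b β))

theorem abelian_of_odd (h2 : p ≠ 2) (hP : IsPGroup p P) : IsMulCommutative P := by
  by_cases hc : IsCyclic P
  · infer_instance
  obtain ⟨E, h1, h3, h4, h5⟩ := PGroup.exists_invariant_elemAb_sq_of_odd h2 hP le_rfl le_normalizer hc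
  obtain ⟨a, -, -, r, -, le⟩ := exists_line hρ h4 fun c => by
    obtain ⟨a, ha⟩ := c.exists_ofOrder_eq_natCard
    have := Nat.le_of_dvd hp.out.pos (orderOf_dvd_of_pow_eq_one (Subtype.ext (h4.2 a a.2) : a ^ p = 1))
    have := hp.out.one_lt
    nlinarith
  obtain ⟨α, β, -, -, k⟩ := exists_pair hρ (H := P) r fun g hg => by
    obtain ⟨m, hm⟩ := Inv.odd_orderOf_of_mem (odd_pgroup h2 hP) hg
    have := pow_mem (le g (h3 hg)) (m + 1)
    rwa [← pow_two, ← pow_mul, show 2 * (m + 1) = orderOf g + 1 by omega, pow_succ, pow_orderOf_eq_one, one_mul] at this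
  have c : ∀ (f : P →* Dˣ) x y, f (x * y * (y * x)⁻¹) = 1 := fun f x y => by
    have := cyc_of_odd h2 hP f
    have := congrArg Subtype.val (mul_comm' (f.rangeRestrict x) (f.rangeRestrict y))
    rw [map_mul, map_inv, mul_inv_eq_one, map_mul, map_mul]
    exact this
  exact ⟨⟨fun x y => mul_inv_eq_one.1 (k _ (c α x y) (c β x y))⟩⟩

end Cfsg.Lib.DivM
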