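import Mathlib

/-! Two by two matrices over a division ring: rank one idempotents (helper22). -/

set_option autoImplicit false

namespace Cfsg.Lib.DivM

open Matrix

variable {D : Type*} [DivisionRing D]

/-- two by two matrices -/
abbrev M2 (D : Type*) := Matrix (Fin 2) (Fin 2) D

/-- A rank one idempotent. -/
structure R1 (e : M2 D) : Prop where
  sq : e * e = e
  ne0 : e ≠ 0
  ne1 : e ≠ 1

variable {e f x y v : M2 D}

theorem R1.compl (h : R1 e) : R1 (1 - e) :=
  ⟨by rw [mul_sub, mul_one, sub_mul, h.sq]; simp, fun k => h.ne1 (sub_eq_zero.1 k).symm, fun k => h.ne0 (by simpa using k)⟩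

theorem exists_entry (h : x ≠ 0) : ∃ i j, x i j ≠ 0 := by
  by_contra! H
  exact h (Matrix.ext H)

theorem R1.diag (h : R1 e) : ∃ P Q : M2 D, P * Q = 1 ∧ Q * P = 1 ∧ Q * e * P = !![1, 0; 0, 0] := by
  obtain ⟨i, j, a⟩ := exists_entry h.ne0
  obtain ⟨k, l, b⟩ := exists_entry h.compl.ne0
  let Q : M2 D := of ![e i, (1 - e) k]
  have e1 : Q * e = !![1, 0; 0, 0] * Q := by
    have h1 : ∀ m, ∑ n, e i n * e n m = e i m := fun m => congrFun (congrFun h.sq i) m
    have h2 : ∀ m, ∑ n, (1 - e) k n * e n m = 0 := fun m => by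
      rw [← mul_apply, sub_mul, h.sq, one_mul, sub_self, Matrix.zero_apply]
    ext a m
    fin_cases a
    · simpa [Q, mul_apply] using h1 m
    · simpa [Q, mul_apply] using h2 m
  have hQ : IsUnit Q := IsArtinianRing.isUnit_iff_isRightRegular.2 (isRightRegular_iff_left_eq_zero_of_mul.2 fun y hy => by
    have h1 : y * !![1, 0; 0, 0] * Q = 0 := by rw [mul_assoc, ← e1, ← mul_assoc, hy, zero_mul]
    have h2 : ∀ c, y c 0 = 0 := fun c => by
      simpa [Q, mul_apply, a] using congrFun (congrFun h1 c) j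
    ext a m
    fin_cases m
    · exact h2 a
    · have := congrFun (congrFun hy a) l
      rw [mul_apply, Fin.sum_univ_two, h2, zero_mul, zero_add] at this
      exact (mul_eq_zero.1 this).resolve_right b)
  obtain ⟨u, hu⟩ := hQ
  exact ⟨u⁻¹.1, Q, by simp [← hu], by simp [← hu], by rw [e1, ← hu, mul_assoc, u.mul_inv, mul_one]⟩

/-- The corner map. -/
theorem R1.alpha (h : R1 e) : ∃ α : M2 D →+ D, α 1 = 1 ∧ (∀ x y, e * y = y * e → α (x * y) = α x * α y) ∧
    ∀ x, e * x = x * e → α x = 0 → x * e = 0 := by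
  obtain ⟨P, Q, a, b, c⟩ := h.diag
  have k : ∀ y, e * y = y * e → !![1, 0; 0, 0] * (Q * y * P) = Q * y * P * !![1, 0; 0, 0] := fun y hy => by
    rw [← c]
    calc _ = Q * (e * (P * Q) * y) * P := by simp only [mul_assoc]
      _ = Q * (y * (P * Q) * e) * P := by rw [a, mul_one, mul_one, hy]
      _ = _ := by simp only [mul_assoc]
  refine ⟨⟨⟨fun x => (Q * x * P) 0 0, by simp⟩, fun x y => by simp [mul_add, add_mul]⟩, by simp [b], fun x y hy => ?_,
    fun x hx h0 => ?_⟩
  · have : Q * (x * y) * P = Q * x * P * (Q * y * P) := by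
      calc _ = Q * (x * (P * Q) * y) * P := by rw [a, mul_one]
        _ = _ := by simp only [mul_assoc]
    have h1 : (Q * y * P) 1 0 = 0 := by simpa [mul_apply] using (congrFun (congrFun (k y hy) 1) 0).symm
    simp only [AddMonoidHom.coe_mk, ZeroHom.coe_mk]
    rw [this, mul_apply, Fin.sum_univ_two, h1, mul_zero, add_zero]
  · have h1 : (Q * x * P) 1 0 = 0 := by simpa [mul_apply] using (congrFun (congrFun (k x hx) 1) 0).symm
    have h2 : Q * x * P * !![1, 0; 0, 0] = 0 := by
      replace h0 : (Q * x * P) 0 0 = 0 := h0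
      clear k
      generalize Q * x * P = w at *
      ext i j
      fin_cases i <;> fin_cases j <;> simp_all [mul_apply]
    calc x * e = (P * Q) * x * (P * Q) * e * (P * Q) := by simp [a]
      _ = P * (Q * x * P * (Q * e * P)) * Q := by simp only [mul_assoc]
      _ = 0 := by rw [c, h2]; simp

theorem R1.cancel (h : R1 e) (hx : x * e = x) (hv : e * v = v) (h0 : x * v = 0) : x = 0 ∨ v = 0 := by
  obtain ⟨P, Q, a, b, c⟩ := h.diag
  have h1 : x * P * !![1, 0; 0, 0] = x * P := by
    rw [← c, ← mul_assoc, ← mul_assoc, mul_assoc x, a, mul_one, hx]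
  have h2 : !![1, 0; 0, 0] * (Q * v) = Q * v := by
    rw [← c, mul_assoc, ← mul_assoc P, a, one_mul, mul_assoc, hv]
  have h3 : x * P * (Q * v) = 0 := by rw [mul_assoc, ← mul_assoc P, a, one_mul, h0]
  suffices x * P = 0 ∨ Q * v = 0 from this.imp (fun k => by rw [← mul_one x, ← a, ← mul_assoc, k, zero_mul])
    fun k => by rw [← one_mul v, ← a, mul_assoc, k, mul_zero]
  generalize x * P = X, Q * v = V at *
  by_contra! H
  obtain ⟨i, j, p⟩ := exists_entry H.1
  obtain ⟨k, l, q⟩ := exists_entry H.2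
  have h4 : X i 1 = 0 := by simpa [mul_apply] using (congrFun (congrFun h1 i) 1).symm
  have h5 : V 1 l = 0 := by simpa [mul_apply] using (congrFun (congrFun h2 1) l).symm
  have h6 := congrFun (congrFun h3 i) l
  rw [mul_apply, Fin.sum_univ_two, h4, zero_mul, add_zero, Matrix.zero_apply, mul_eq_zero] at h6
  fin_cases j <;> fin_cases k <;> simp_all

/-- commuting idempotents -/
theorem R1.eq_of_comm (h : R1 e) (hf : R1 f) (c : e * f = f * e) : f = e ∨ f = 1 - e := by
  have key : ∀ {e : M2 D}, R1 e → e * f = f * e → f * e = 0 ∨ f * e = e := fun {e} h c => by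
    have := h.cancel (x := f * e) (v := e - f * e) (by rw [mul_assoc, h.sq])
      (by rw [mul_sub, h.sq, ← mul_assoc, c, mul_assoc, h.sq])
      (by rw [mul_sub, mul_assoc, h.sq, mul_assoc, ← mul_assoc e, c, ← mul_assoc, ← mul_assoc, hf.sq, mul_assoc, h.sq, sub_self])
    exact this.imp id fun k => (sub_eq_zero.1 k).symm
  have h1 := key h c
  have h2 := key h.compl (by rw [mul_sub, sub_mul, c, one_mul, mul_one])
  rw [mul_sub, mul_one] at h2
  rcases h1 with a | a <;> rcases h2 with b | b <;> rw [a] at b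
  · exact absurd (by simpa using b) hf.ne0
  · exact .inr (by simpa using b)
  · exact .inl (sub_eq_zero.1 b)
  · exact absurd (sub_left_injective b) hf.ne1

end Cfsg.Lib.DivM
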