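import Cfsg.Agent.Lib.DivM.Basic
import Cfsg.Agent.Lib.Char.Column
import Cfsg.Agent.Lib.Char.Values

/-! The regular trace of the rational envelope (helper22). -/

set_option autoImplicit false
set_option linter.unusedSectionVars false

namespace Cfsg.Lib.DivM

open Subgroup Cfsg.Lib.BG Cfsg.Lib.GW Module Polynomial
open scoped Cfsg.Lib.Transfer

variable {D : Type*} [DivisionRing D] [CharZero D] {G : Type*} [Group G] [Finite G] (ρ : G →* M2 D)

/-- the rational envelope -/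
def RR : Subalgebra ℚ (M2 D) := Algebra.adjoin ℚ (Set.range ρ)

theorem RR_span : (RR ρ).toSubmodule = Submodule.span ℚ (Set.range ρ) := by
  rw [RR, Algebra.adjoin_eq_span, ← MonoidHom.coe_mrange, Submonoid.closure_eq]

instance finRR : FiniteDimensional ℚ (RR ρ) := by
  change FiniteDimensional ℚ (RR ρ).toSubmodule
  rw [RR_span]
  exact .span_of_finite _ (Set.finite_range _)

/-- group elements in the envelope -/
def rr : G →* RR ρ := ρ.codRestrict (RR ρ) fun g => Algebra.subset_adjoin ⟨g, rfl⟩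

/-- the regular trace -/
noncomputable def tr : RR ρ →ₗ[ℚ] ℚ := LinearMap.trace ℚ _ ∘ₗ (Algebra.lmul ℚ (RR ρ)).toLinearMap

/-- the regular representation -/
noncomputable def reg : Representation ℚ G (RR ρ) := (Algebra.lmul ℚ (RR ρ)).toRingHom.toMonoidHom.comp (rr ρ)

/-- the character -/
noncomputable def ch (g : G) : ℚ := tr ρ (rr ρ g)

/-- the dimension -/
noncomputable def dm : ℕ := finrank ℚ (RR ρ)

/-- no invariant decomposition -/
def Irr : Prop := ∀ e, R1 e → Ce ρ e ≠ ⊤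

/-- averaging idempotents in the envelope -/
noncomputable def avR (H : Subgroup G) : RR ρ := (Nat.card H : ℚ)⁻¹ • ∑ᶠ h : H, rr ρ h

variable {ρ} {A H Y : Subgroup G} {a g x y : G}

@[simp] theorem coe_rr (g : G) : (rr ρ g : M2 D) = ρ g := rfl

theorem coe_avR : (avR ρ H : M2 D) = av ρ H := by
  have := Fintype.ofFinite H
  simp [avR, av, finsum_eq_sum_of_fintype]

theorem dm_pos : 0 < dm ρ := finrank_pos
theorem tr_one : tr ρ 1 = dm ρ := (congrArg (LinearMap.trace ℚ _) (map_one (Algebra.lmul ℚ (RR ρ)))).trans (LinearMap.trace_one ℚ _)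
theorem ch_one : ch ρ 1 = dm ρ := by rw [ch, map_one, tr_one]
theorem ch_conj (g x : G) : ch ρ (g * x * g⁻¹) = ch ρ x := (reg ρ).char_conj x g
theorem ch_neg {z : G} (hz : ρ z = -1) : ch ρ (z * x) = -ch ρ x := by
  rw [ch, ch, ← map_neg]
  exact congrArg _ (Subtype.ext (by simp [hz]))

theorem ch_inv (g : G) : ch ρ g⁻¹ = ch ρ g := by
  let σ : Representation ℂ G (TensorProduct ℚ ℂ (RR ρ)) :=
    (End.baseChangeHom ℚ ℂ (RR ρ)).toRingHom.toMonoidHom.comp (reg ρ)
  have k : ∀ g, σ.character g = ch ρ g := fun g => LinearMap.trace_baseChange (reg ρ g) ℂ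
  have := Char.character_apply_inv σ g
  rw [k, k, map_ratCast] at this
  exact_mod_cast this

theorem sum_sq_le [Fintype G] : ∑ g, ch ρ g ^ 2 ≤ Nat.card G * dm ρ := by
  have c : (Nat.card G : ℚ) ≠ 0 := Nat.cast_ne_zero.2 Nat.card_pos.ne'
  have := invertibleOfNonzero c
  have h := (reg ρ).card_inv_mul_sum_char_mul_char_eq_finrank (reg ρ)
  rw [inv_mul_eq_iff_eq_mul₀ c] at h
  have h2 : finrank ℚ ((reg ρ).IntertwiningMap (reg ρ)) ≤ dm ρ := LinearMap.finrank_le_finrank_of_injective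
    (f := ⟨⟨fun φ => φ.toLinearMap 1, fun _ _ => rfl⟩, fun _ _ => rfl⟩) fun φ ψ e => by
      refine Representation.IntertwiningMap.ext (LinearMap.ext fun ⟨v, hv⟩ => ?_)
      have hv' : v ∈ Submodule.span ℚ (Set.range ρ) := RR_span ρ ▸ hv
      induction hv' using Submodule.span_induction with
      | mem v h =>
        obtain ⟨g, rfl⟩ := h
        have k : ∀ φ : (reg ρ).IntertwiningMap (reg ρ), φ.toLinearMap (rr ρ g) = rr ρ g * φ.toLinearMap 1 := fun φ => by
          simpa [reg] using LinearMap.congr_fun (φ.2 g) 1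
        exact (k φ).trans ((congrArg (rr ρ g * ·) e).trans (k ψ).symm)
      | zero => exact (map_zero _).trans (map_zero _).symm
      | add v w a b h1 h2 =>
        exact (map_add _ (⟨v, (RR_span ρ).ge a⟩ : RR ρ) ⟨w, (RR_span ρ).ge b⟩).trans ((congrArg₂ (· + ·) (h1 _) (h2 _)).trans (map_add _ _ _).symm)
      | smul c v a h1 =>
        exact (map_smul _ c (⟨v, (RR_span ρ).ge a⟩ : RR ρ)).trans ((congrArg (c • ·) (h1 _)).trans (map_smul _ _ _).symm)
  calc _ = ∑ g, (reg ρ).character g * (reg ρ).character g⁻¹ :=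
        Finset.sum_congr rfl fun g _ => (pow_two _).trans (congrArg _ (ch_inv g).symm)
    _ ≤ _ := by rw [h]; gcongr

theorem cls_le (U : Finset G) (h : ∀ u ∈ U, ∀ v ∈ U, IsConj u v → u = v) :
    ∑ u ∈ U, (𝐂[u].index : ℚ) * ch ρ u ^ 2 ≤ Nat.card G * dm ρ := by
  classical
  have := Fintype.ofFinite G
  refine le_trans ?_ sum_sq_le
  rw [← Finset.sum_congr rfl fun u _ => (show ∑ y with IsConj u y, ch ρ y ^ 2 = _ by
    rw [Finset.sum_congr rfl (g := fun _ => ch ρ u ^ 2) fun y hy => by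
      obtain ⟨g, rfl⟩ := isConj_iff.1 (Finset.mem_filter.1 hy).2
      rw [ch_conj], Finset.sum_const, Char.card_filter_isConj, nsmul_eq_mul]), ← Finset.sum_biUnion fun u a v b n =>
    Finset.disjoint_filter.2 fun y _ e1 e2 => n (h u a v b (e1.trans e2.symm))]
  exact Finset.sum_le_sum_of_subset_of_nonneg (Finset.subset_univ _) fun _ _ _ => sq_nonneg _

theorem tr_le (hI : Irr ρ) {e : RR ρ} (h : R1 e.1) : tr ρ e ≤ tr ρ (1 - e) := by
  obtain ⟨g, hg⟩ : ∃ g, (1 - e.1) * ρ g * e.1 ≠ 0 := by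
    by_contra! H
    have := Fintype.ofFinite G
    replace H : ∀ g, e.1 * (ρ g * e.1) = ρ g * e.1 := fun g => by
      have := H g
      rwa [sub_mul, sub_mul, one_mul, sub_eq_zero, mul_assoc, eq_comm] at this
    have c : (Fintype.card G : ℚ) ≠ 0 := Nat.cast_ne_zero.2 Fintype.card_ne_zero
    let f := (Fintype.card G : ℚ)⁻¹ • ∑ g, ρ g * e.1 * ρ g⁻¹
    have h1 : e.1 * f = f := by
      rw [mul_smul_comm, Finset.mul_sum]
      exact congrArg _ (Finset.sum_congr rfl fun g _ => by rw [← mul_assoc, H])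
    have h2 : f * e.1 = e.1 := by
      simp only [f, smul_mul_assoc, Finset.sum_mul, mul_assoc, H]
      simp only [← mul_assoc, ← map_mul, mul_inv_cancel, map_one, one_mul, Finset.sum_const, Finset.card_univ,
        ← Nat.cast_smul_eq_nsmul ℚ, smul_smul, inv_mul_cancel₀ c, one_smul]
    refine hI f ⟨by rw [← h1, mul_assoc, ← mul_assoc f, h2, h1, h1], fun k => h.ne0 (by rw [← h2, k, zero_mul]),
      fun k => h.ne1 (by rwa [k, mul_one] at h1)⟩ (eq_top_iff.2 fun x _ => ?_)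
    simp only [mem_Ce, f, smul_mul_assoc, mul_smul_comm, Finset.mul_sum, Finset.sum_mul]
    congr 1
    exact (Fintype.sum_equiv (Equiv.mulLeft x) _ _ fun g => by
      simp only [Equiv.coe_mulLeft, mul_inv_rev]
      rw [mul_assoc _ _ (ρ x), ← map_mul, inv_mul_cancel_right, map_mul, mul_assoc, mul_assoc, mul_assoc]).symm
  have k : ∀ {e : RR ρ}, e.1 * e.1 = e.1 → tr ρ e = finrank ℚ (LinearMap.range (Algebra.lmul ℚ _ e)) := fun {e} h =>
    have := Module.Free.of_divisionRing ℚ (LinearMap.range (Algebra.lmul ℚ _ e))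
    have := Module.Free.of_divisionRing ℚ (LinearMap.ker (Algebra.lmul ℚ _ e))
    (LinearMap.IsIdempotentElem.isProj_range _ ((show IsIdempotentElem e from Subtype.ext h).map (Algebra.lmul ℚ (RR ρ)))).trace
  rw [k h.sq, k h.compl.sq, Nat.cast_le]
  refine LinearMap.finrank_le_finrank_of_injective (f := (Algebra.lmul ℚ _ ((1 - e) * rr ρ g * e)).restrict
    fun v _ => ⟨rr ρ g * e * v, by simp only [Algebra.coe_lmul_eq_mul, LinearMap.mul_apply', mul_assoc]⟩) ((injective_iff_map_eq_zero _).2 ?_)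
  rintro ⟨_, v, rfl⟩ e0
  exact Subtype.ext (Subtype.ext ((h.cancel (v := e.1 * v.1) (by rw [mul_assoc, h.sq]) (by rw [← mul_assoc, h.sq])
    (congrArg (·.1.1) e0)).resolve_left hg))

theorem tr_idem (hI : Irr ρ) {e : RR ρ} (h : e.1 * e.1 = e.1) (h1 : e.1 ≠ 1) : tr ρ e = 0 ∨ 2 * tr ρ e = dm ρ := by
  by_cases h0 : e.1 = 0
  · exact .inl (by rw [show e = 0 from Subtype.ext h0, map_zero])
  have a := tr_le hI ⟨h, h0, h1⟩
  have b := tr_le hI (e := 1 - e) (R1.compl ⟨h, h0, h1⟩)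
  rw [sub_sub_cancel] at b
  rw [map_sub, tr_one] at a b
  exact .inr (by linarith)

theorem tr_avR [Fintype H] : Nat.card H * tr ρ (avR ρ H) = ∑ h : H, ch ρ h := by
  rw [avR, map_smul, finsum_eq_sum_of_fintype, map_sum, smul_eq_mul, mul_inv_cancel_left₀ (Nat.cast_ne_zero.2 Nat.card_pos.ne')]
  rfl

variable (hρ : Function.Injective ρ)
include hρ

theorem tr_av (hI : Irr ρ) (ha : a ∈ H) (h : a ≠ 1) : tr ρ (avR ρ H) = 0 ∨ 2 * tr ρ (avR ρ H) = dm ρ :=
  tr_idem hI (by rw [coe_avR, av_sq]) (coe_avR (ρ := ρ) ▸ av_ne_one hρ ha h)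

theorem sum_pow (hI : Irr ρ) {n : ℕ} (h : a ^ n = 1) (hn : n ≠ 0) (h1 : a ≠ 1) :
    ∑ k ∈ Finset.range n, ch ρ (a ^ k) = 0 ∨ 2 * ∑ k ∈ Finset.range n, ch ρ (a ^ k) = n * dm ρ := by
  have e : ∑ k ∈ Finset.range n, ch ρ (a ^ k) = n * tr ρ (avR ρ (zpowers a)) := by
    rw [show avR ρ (zpowers a) = (n : ℚ)⁻¹ • ∑ k ∈ Finset.range n, rr ρ (a ^ k) from Subtype.ext (by
      simp [coe_avR, av_zpowers h hn]), map_smul, map_sum, smul_eq_mul, mul_inv_cancel_left₀ (Nat.cast_ne_zero.2 hn)]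
    rfl
  exact (tr_av hρ hI (mem_zpowers a) h1).imp (fun k => by rw [e, k, mul_zero]) fun k => by rw [e, ← k]; ring

/-- no Frobenius subgroups with complement of order at least three -/
theorem no_frob (hI : Irr ρ) (hA : A ≠ ⊥) (hY : Y ≤ 𝐍(A)) (h : SemiReg A Y) : Nat.card Y ≤ 2 := by
  classical
  have := Fintype.ofFinite A
  have := Fintype.ofFinite Y
  by_contra! h3
  obtain ⟨a, ha, a1⟩ := exists_ne_one hA
  obtain ⟨y, hy, y1⟩ := exists_ne_one (A := Y) (by rintro rfl; simp at h3)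
  have t1 := tr_av hρ hI ha a1
  have t2 := tr_av hρ hI hy y1
  have c := av_comm (ρ := ρ) (hY.trans norm_le_Ce)
  have t3 := tr_idem hI (e := avR ρ A * avR ρ Y) (by
    simp only [MulMemClass.coe_mul, coe_avR]
    rw [mul_assoc, ← mul_assoc (av ρ Y), ← c, mul_assoc, av_sq, ← mul_assoc, av_sq]) fun k => a1 (hρ (by
      simp only [MulMemClass.coe_mul, coe_avR] at k
      rw [← mul_one (ρ a), ← k, ← mul_assoc, mul_av ha, k, map_one]))
  have cA : (0 : ℚ) < Nat.card A := Nat.cast_pos.2 Nat.card_pos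
  have cY : (2 : ℚ) < Nat.card Y := by exact_mod_cast h3
  have e1 : Nat.card A * Nat.card Y * tr ρ (avR ρ A * avR ρ Y) = ∑ w : Y, ∑ x : A, ch ρ (x * w) := by
    simp only [avR, finsum_eq_sum_of_fintype, smul_mul_smul_comm, map_smul, Finset.sum_mul_sum, map_sum, ch, map_mul,
      smul_eq_mul]
    rw [Finset.sum_comm]
    field_simp
  have e2 : ∀ w : Y, w ≠ 1 → ∑ x : A, ch ρ (x * w) = Nat.card A * ch ρ w := fun w hw => by
    let f : A → A := fun c => ⟨c * (w.1 * c.1⁻¹ * w.1⁻¹), mul_mem c.2 (conj_mem_of_norm (hY w.2) (inv_mem c.2))⟩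
    have hf : Function.Injective f := fun c d e => by
      have e3 : d.1⁻¹ * c.1 ∈ A ⊓ 𝐂[(w : G)] := ⟨A.mul_mem (A.inv_mem d.2) c.2, mem_cent1.2 (by
        have e4 : c.1 * (w.1 * c.1⁻¹ * w.1⁻¹) = d * (w.1 * d.1⁻¹ * w.1⁻¹) := congrArg Subtype.val e
        calc _ = d.1⁻¹ * (c.1 * (w.1 * c.1⁻¹ * w.1⁻¹)) * w * c := by group
          _ = _ := by rw [e4]; group)⟩
      rw [h w w.2 (fun e => hw (Subtype.ext e)), mem_bot, inv_mul_eq_one] at e3
      exact Subtype.ext e3.symm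
    rw [← Fintype.sum_bijective f (Finite.injective_iff_bijective.1 hf) (fun _ => ch ρ w) _ fun c => by
      rw [← ch_conj c.1 w.1]; congr 1; simp [f, mul_assoc], Finset.sum_const, Finset.card_univ, nsmul_eq_mul,
      Nat.card_eq_fintype_card]
  have e3 := tr_avR (ρ := ρ) (H := Y)
  rw [← Finset.add_sum_erase _ _ (Finset.mem_univ 1)] at e1 e3
  rw [Finset.sum_congr rfl fun w hw => e2 w (Finset.ne_of_mem_erase hw), ← Finset.mul_sum, Subgroup.coe_one] at e1
  simp only [mul_one, ← tr_avR] at e1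
  rw [Subgroup.coe_one, ch_one] at e3
  have d : (0 : ℚ) < dm ρ := Nat.cast_pos.2 dm_pos
  have e4 : Nat.card Y * (tr ρ (avR ρ Y) - tr ρ (avR ρ A * avR ρ Y)) = dm ρ - tr ρ (avR ρ A) :=
    mul_left_cancel₀ cA.ne' (by linear_combination (Nat.card A : ℚ) * e3 - e1)
  rcases t1 with t1 | t1 <;> rcases t2 with t2 | t2 <;> rcases t3 with t3 | t3 <;> nlinarith

/-- a lower bound for the dimension -/
theorem dm_ge {p : ℕ} [hp : Fact p.Prime] (ha : orderOf a = p) : 𝐂[a].relIndex 𝐍(zpowers a) * (p - 1) ≤ dm ρ := by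
  classical
  set N := 𝐍(zpowers a)
  let ι := N ⧸ 𝐂[a].subgroupOf N
  have := Fintype.ofFinite ι
  let e : RR ρ := 1 - avR ρ (zpowers a)
  have ap : a ^ p = 1 := ha ▸ pow_orderOf_eq_one a
  have a1 : a ≠ 1 := fun k => hp.out.one_lt.ne (by rw [← ha, k, orderOf_one])
  have ce : ∀ g ∈ N, e * rr ρ g = rr ρ g * e := fun g hg => Subtype.ext (by
    simpa [e, coe_avR, mul_sub, sub_mul] using mem_Ce.1 (norm_le_Ce (ρ := ρ) hg))
  have s0 : ∀ w ∈ zpowers a, w ≠ 1 → (∑ k ∈ Finset.range p, rr ρ w ^ k) * e = 0 := fun w hw w1 => Subtype.ext (by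
    have e1 : zpowers w = zpowers a := eq_of_le_of_card_ge (zpowers_le.2 hw) (by
      rw [Nat.card_zpowers, Nat.card_zpowers, ha, orderOf_eq_prime (by
        obtain ⟨k, rfl⟩ := hw
        rw [← zpow_natCast, ← zpow_mul, mul_comm, zpow_mul, zpow_natCast, ap, one_zpow]) w1])
    have e2 := av_zpowers (ρ := ρ) (a := w) (n := p) (by rw [← ha, ← Nat.card_zpowers, ← e1, Nat.card_zpowers, pow_orderOf_eq_one])
      hp.out.ne_zero
    rw [e1, eq_comm, inv_smul_eq_iff₀ (Nat.cast_ne_zero.2 hp.out.ne_zero)] at e2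
    simp [e, coe_avR, e2, mul_sub, av_sq])
  let L : (ι → degreeLT ℚ (p - 1)) →ₗ[ℚ] RR ρ := ∑ l : ι, (LinearMap.mulRight ℚ (rr ρ l.out * e)) ∘ₗ
    (aeval (rr ρ a)).toLinearMap ∘ₗ (degreeLT ℚ (p - 1)).subtype ∘ₗ LinearMap.proj l
  have := LinearMap.finrank_le_finrank_of_injective (f := L) ((injective_iff_map_eq_zero _).2 fun c hc => funext fun j => ?_)
  · rwa [finrank_pi_fintype, Finset.sum_const, (degreeLTEquiv ℚ _).finrank_eq, finrank_fin_fun, Finset.card_univ,
      ← Nat.card_eq_fintype_card] at this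
  replace hc : ∑ l : ι, aeval (rr ρ a) (c l).1 * (rr ρ l.out * e) = 0 := by simpa [L, mul_assoc] using hc
  let b : ι → G := fun l => l.out * a * (l.out : G)⁻¹
  have hb : ∀ l, b l ∈ zpowers a := fun l => conj_mem_of_norm l.out.2 (mem_zpowers a)
  have cm : ∀ w ∈ zpowers a, ∀ q : ℚ[X], rr ρ w * aeval (rr ρ a) q = aeval (rr ρ a) q * rr ρ w := fun w hw q => by
    obtain ⟨k, rfl⟩ := (Submonoid.mem_powers_iff _ _).1 (mem_powers_iff_mem_zpowers.2 hw)
    rw [map_pow, ← aeval_X_pow (R := ℚ), ← map_mul, ← map_mul, mul_comm]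
  have h1 : ∀ m : ℕ, ∑ l : ι, aeval (rr ρ a) (c l).1 * (rr ρ ((b j)⁻¹ * b l) ^ m * e * rr ρ l.out) = 0 := fun m => by
    have := congrArg (fun v => rr ρ ((b j)⁻¹ ^ m) * v * rr ρ (a ^ m)) hc
    simp only [Finset.mul_sum, Finset.sum_mul, mul_zero, zero_mul] at this
    rw [← this]
    refine Finset.sum_congr rfl fun l _ => ?_
    rw [← mul_assoc (rr ρ _), cm _ (pow_mem (inv_mem (hb j)) m), mul_assoc, mul_assoc, mul_assoc, mul_assoc,
      ce _ (pow_mem (le_normalizer (mem_zpowers a)) m), ce _ l.out.2, ← map_pow, Commute.mul_pow (mem_cent.1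
        (abelian_cent inferInstance (hb l)) _ (inv_mem (hb j)))]
    simp only [← mul_assoc (rr ρ _), ← map_mul]
    rw [show b l ^ m = l.out * a ^ m * (l.out : G)⁻¹ from conj_pow, mul_assoc, inv_mul_cancel_right, ← mul_assoc]
  have h2 := Finset.sum_eq_zero (s := Finset.range p) fun m _ => h1 m
  rw [Finset.sum_comm, Finset.sum_eq_single j (fun l _ n => ?_) (by simp)] at h2
  swap
  · rw [← Finset.mul_sum, ← Finset.sum_mul, ← Finset.sum_mul, s0 _ (mul_mem (inv_mem (hb j)) (hb l)) fun k => n ?_,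
      zero_mul, mul_zero]
    rw [← l.out_eq', ← j.out_eq', QuotientGroup.eq, mem_subgroupOf, mem_cent1]
    rw [inv_mul_eq_one] at k
    calc _ = (l.out : G)⁻¹ * b j * j.out := by simp [b, mul_assoc]
      _ = _ := by rw [k]; simp [b, mul_assoc]
  have h3 : aeval (rr ρ a) (c j).1 * e = 0 := by
    simp only [inv_mul_cancel, map_one, one_pow, one_mul, Finset.sum_const, Finset.card_range,
      ← Nat.cast_smul_eq_nsmul ℚ, smul_eq_zero, Nat.cast_eq_zero, hp.out.ne_zero, false_or] at h2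
    rw [← mul_one e, ← map_one (rr ρ), ← mul_inv_cancel (j.out : G), map_mul, ← mul_assoc e, ← mul_assoc, h2, zero_mul]
  by_contra n
  obtain ⟨u, v, k⟩ := (cyclotomic.irreducible_rat hp.out.pos).coprime_iff_not_dvd.2 fun k => n (Subtype.ext
    (eq_zero_of_dvd_of_degree_lt k (by rw [degree_cyclotomic, Nat.totient_prime hp.out]; exact mem_degreeLT.1 (c j).2)))
  have h4 := congrArg (fun q => aeval (rr ρ a) q * e) k
  simp only [map_add, map_mul, add_mul, mul_assoc, h3, cyclotomic_prime, map_sum, map_pow, aeval_X,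
    s0 a (mem_zpowers a) a1, mul_zero, add_zero, map_one, one_mul] at h4
  exact av_ne_one hρ (mem_zpowers a) a1 (by
    rw [← coe_avR]; exact (congrArg Subtype.val (sub_eq_zero.1 h4.symm)).symm)

end Cfsg.Lib.DivM
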